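import Mathlib
import Cfsg.Agent.Lib.Helper27.FixedPoint
import Cfsg.Agent.Lib.Helper28.Cores

set_option autoImplicit false

namespace Cfsg.Agent.Lib.Helper27

open Subgroup Cfsg

universe u

variable {G : Type u} [Group G]

/-- A characteristic subgroup of `K` is normalized by `N_G(K)`. -/
theorem le_normalizer_map_of_characteristic {K : Subgroup G} (S : Subgroup K)
    [hS : S.Characteristic] :
    normalizer (K : Set G) ≤ normalizer ((S.map K.subtype : Subgroup G) : Set G) := by
  apply le_normalizer_of_conj_mem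
  rintro n hn _ ⟨s, hs, rfl⟩
  have h1 : (K.normalizerMonoidHom ⟨n, hn⟩) s ∈ S := by
    have := (characteristic_iff_le_comap.1 hS) (K.normalizerMonoidHom ⟨n, hn⟩)
    exact this hs
  exact ⟨_, h1, rfl⟩

/-- `O_{q',q}(K)` is characteristic. -/
theorem comap_pCore_quotient_characteristic (q : ℕ) (K : Type u) [Group K] :
    ((pCore q (K ⧸ pPrimeCore q K)).comap (QuotientGroup.mk' (pPrimeCore q K))).Characteristic := by
  rw [characteristic_iff_le_comap]
  intro φ w hw
  have hO : (pPrimeCore q K).map (φ : K →* K) = pPrimeCore q K :=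
    Cfsg.Agent.Lib.Helper28.pPrimeCore_map_equiv q φ
  have h1 := Cfsg.Agent.Lib.Helper28.pCore_map_equiv q
    (QuotientGroup.congr (pPrimeCore q K) (pPrimeCore q K) φ hO)
  rw [mem_comap, mem_comap]
  rw [mem_comap] at hw
  have h2 : QuotientGroup.mk' (pPrimeCore q K) (φ w) =
      (QuotientGroup.congr (pPrimeCore q K) (pPrimeCore q K) φ hO)
        (QuotientGroup.mk' (pPrimeCore q K) w) := rfl
  show QuotientGroup.mk' (pPrimeCore q K) (φ w) ∈ _
  rw [h2, ← h1]
  exact mem_map_of_mem _ hw

/-- A `p`-group of order at least `p` has a subgroup of index `p`. -/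
theorem exists_relIndex_eq_prime [Finite G] {p : ℕ} [hp : Fact p.Prime] {A : Subgroup G}
    (hA : IsPGroup p A) (hA2 : p ≤ Nat.card A) : ∃ B : Subgroup G, B ≤ A ∧ B.relIndex A = p := by
  obtain ⟨n, hn⟩ := IsPGroup.iff_card.1 hA
  have hn0 : n ≠ 0 := by
    rintro rfl
    rw [hn, pow_zero] at hA2
    exact absurd hA2 (not_le.2 hp.out.one_lt)
  obtain ⟨m, rfl⟩ := Nat.exists_eq_succ_of_ne_zero hn0
  obtain ⟨B, hB⟩ := Sylow.exists_subgroup_card_pow_prime (G := A) p
    (n := m) (by rw [hn]; exact pow_dvd_pow p (Nat.le_succ m))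
  refine ⟨B.map A.subtype, map_subtype_le _, ?_⟩
  have h1 : (B.map A.subtype).relIndex A = B.index := by
    rw [relIndex, subgroupOf, comap_map_eq_self_of_injective A.subtype_injective]
  have h2 := B.card_mul_index
  rw [hB, hn, pow_succ] at h2
  rw [h1]
  exact Nat.eq_of_mul_eq_mul_left (pow_pos hp.out.pos m) h2

/-- In a `p`-group, a subgroup of index at most `p` has index `1` or `p`. -/
theorem relIndex_eq_one_or_prime [Finite G] {p : ℕ} [hp : Fact p.Prime] {A B : Subgroup G}
    (hA : IsPGroup p A) (h : B.relIndex A ≤ p) : B.relIndex A = 1 ∨ B.relIndex A = p := by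
  obtain ⟨n, hn⟩ := IsPGroup.iff_card.1 hA
  have h1 : B.relIndex A ∣ p ^ n := hn ▸ relIndex_dvd_card B A
  obtain ⟨j, -, hj⟩ := (Nat.dvd_prime_pow hp.out).1 h1
  rw [hj] at h ⊢
  rcases j with _ | _ | j
  · left; simp
  · right; simp
  · exfalso
    have : p ^ 1 < p ^ (j + 1 + 1) := Nat.pow_lt_pow_right hp.out.one_lt (by omega)
    rw [pow_one] at this
    omega

end Cfsg.Agent.Lib.Helper27
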